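import Cfsg.Agent.H307.QE.Defs
import Cfsg.Agent.S2300
import Cfsg.Agent.S0173
import Cfsg.Agent.ClassicalGeometry.AutPSL.Main
import Cfsg.Agent.H684.BlockTools

/-!
# S4547, `PSL₂(q)`, `q` even: field automorphisms, invariant characters of odd degree

`gInv3_fld` : if the fixed field of `σ` has at least four elements then `PSL₂(F)` has three good characters which
are invariant under the field automorphism `σ`.
-/

set_option autoImplicit false
set_option linter.unusedSectionVars false

open Matrix Cfsg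

namespace Cfsg.Agent.H269.K547.PslE

open Cfsg.Agent.ClassicalGeometry.AutPSL.Root Cfsg.Agent.ClassicalGeometry.AutPSL.Auto
open Cfsg.Agent.ClassicalGeometry.AutPSL.Main
open Cfsg.Agent.H821.K547 Cfsg.Agent.H967.K4 Cfsg.Agent.H601.K4 Cfsg.Agent.H307.QE

universe u

variable {F : Type u} [Field F]

/-- the field automorphism of `PSL₂(F)` -/
noncomputable def fa (σ : F ≃+* F) : MulAut (ProjectiveSpecialLinearGroup (Fin 2) F) := lift (fld σ)

theorem fa_pr (σ : F ≃+* F) (x : Matrix.SpecialLinearGroup (Fin 2) F) : fa σ (pr x) = pr (fld σ x) := rfl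

/-! ### the unipotent subgroup -/

/-- `!![1, t; 0, 1]` -/
def un (t : F) : Matrix.SpecialLinearGroup (Fin 2) F := ⟨!![1, t; 0, 1], by rw [det_fin_two_of]; ring⟩

theorem coe_un (t : F) : (un t : Matrix (Fin 2) (Fin 2) F) = !![1, t; 0, 1] := rfl

theorem un_mul (s t : F) : un s * un t = un (s + t) := by
  refine Matrix.SpecialLinearGroup.ext _ _ fun i j => ?_
  rw [Matrix.SpecialLinearGroup.coe_mul, coe_un, coe_un, coe_un]
  fin_cases i <;> fin_cases j <;> simp [Matrix.mul_apply, Fin.sum_univ_two, add_comm]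

theorem un_injective : Function.Injective (un : F → Matrix.SpecialLinearGroup (Fin 2) F) := by
  intro s t h
  have := congrFun (congrFun (congrArg Subtype.val h) 0) 1
  simpa [un] using this

theorem un_zero : (un 0 : Matrix.SpecialLinearGroup (Fin 2) F) = 1 := by
  refine Matrix.SpecialLinearGroup.ext _ _ fun i j => ?_
  rw [coe_un, Matrix.SpecialLinearGroup.coe_one]
  fin_cases i <;> fin_cases j <;> simp

/-- the unipotent subgroup -/
def unH (F : Type u) [Field F] : Multiplicative F →* Matrix.SpecialLinearGroup (Fin 2) F where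
  toFun t := un t.toAdd
  map_one' := un_zero
  map_mul' _ _ := (un_mul _ _).symm

theorem unH_injective : Function.Injective (unH F) := fun _ _ h => Multiplicative.toAdd.injective (un_injective h)

section char2

variable [CharP F 2]

theorem neg_eq (a : F) : -a = a := CharTwo.neg_eq a

/-- the centre of `SL₂(F)` is trivial -/
theorem center_eq {x : Matrix.SpecialLinearGroup (Fin 2) F} (hx : x ∈ Subgroup.center (Matrix.SpecialLinearGroup (Fin 2) F)) :
    x = 1 := by
  obtain ⟨r, hr, hx⟩ := Matrix.SpecialLinearGroup.mem_center_iff.1 hx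
  rw [Fintype.card_fin] at hr
  have h1 : r = 1 := by
    have h2 : (r - 1) * (r - 1) = 0 := by
      have h3 : (2 : F) = 0 := CharTwo.two_eq_zero
      linear_combination hr - (r - 1) * h3
    exact sub_eq_zero.1 (mul_self_eq_zero.1 h2)
  apply Subtype.ext
  rw [← hx, h1]
  simp

theorem pr_injective : Function.Injective (pr : Matrix.SpecialLinearGroup (Fin 2) F →* _) := by
  rw [injective_iff_map_eq_one]
  intro x hx
  exact center_eq ((pr_eq_one_iff x).1 hx)

/-- `SL₂(F) ≃ PSL₂(F)` -/
noncomputable def prE : Matrix.SpecialLinearGroup (Fin 2) F ≃* ProjectiveSpecialLinearGroup (Fin 2) F :=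
  MulEquiv.ofBijective pr ⟨pr_injective, pr_surjective⟩

/-! ### involutions -/

theorem trace_sq (x : Matrix.SpecialLinearGroup (Fin 2) F) :
    trace ((x ^ 2 : Matrix.SpecialLinearGroup (Fin 2) F) : Matrix (Fin 2) (Fin 2) F) =
      trace (x : Matrix (Fin 2) (Fin 2) F) ^ 2 := by
  have h1 := x.det_coe
  rw [det_fin_two] at h1
  rw [pow_two, Matrix.SpecialLinearGroup.coe_mul, trace_fin_two, trace_fin_two, Matrix.mul_apply, Matrix.mul_apply,
    Fin.sum_univ_two, Fin.sum_univ_two]
  have h3 : (2 : F) = 0 := CharTwo.two_eq_zero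
  linear_combination (x 0 1 * x 1 0 - x 0 0 * x 1 1) * h3

theorem sq_of_trace {x : Matrix.SpecialLinearGroup (Fin 2) F}
    (h5 : trace (x : Matrix (Fin 2) (Fin 2) F) = 0) : x ^ 2 = 1 := by
  have h3 : (2 : F) = 0 := CharTwo.two_eq_zero
  rw [trace_fin_two] at h5
  have h6 := x.det_coe
  rw [det_fin_two] at h6
  refine Matrix.SpecialLinearGroup.ext _ _ fun i j => ?_
  rw [pow_two, Matrix.SpecialLinearGroup.coe_mul, Matrix.SpecialLinearGroup.coe_one]
  fin_cases i <;> fin_cases j
  · simp only [Fin.zero_eta, Matrix.mul_apply, Fin.sum_univ_two, one_apply_eq]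
    linear_combination x 0 0 * h5 - h6 - h3
  · simp only [Fin.zero_eta, Fin.mk_one, Matrix.mul_apply, Fin.sum_univ_two]
    rw [one_apply_ne (by decide)]
    linear_combination x 0 1 * h5
  · simp only [Fin.zero_eta, Fin.mk_one, Matrix.mul_apply, Fin.sum_univ_two]
    rw [one_apply_ne (by decide)]
    linear_combination x 1 0 * h5
  · simp only [Fin.mk_one, Matrix.mul_apply, Fin.sum_univ_two, one_apply_eq]
    linear_combination x 1 1 * h5 - h6 - h3

theorem sq_eq_one {x : Matrix.SpecialLinearGroup (Fin 2) F} {j : ℕ} (hx : x ^ 2 ^ j = 1) : x ^ 2 = 1 := by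
  have h1 : ∀ j : ℕ, trace ((x ^ 2 ^ j : Matrix.SpecialLinearGroup (Fin 2) F) : Matrix (Fin 2) (Fin 2) F) =
      trace (x : Matrix (Fin 2) (Fin 2) F) ^ 2 ^ j := by
    intro j
    induction j with
    | zero => simp
    | succ j ih => rw [pow_succ, pow_mul, trace_sq, ih, ← pow_mul, ← pow_succ]
  have h2 := h1 j
  rw [hx, Matrix.SpecialLinearGroup.coe_one, trace_one, Fintype.card_fin] at h2
  have h3 : (2 : F) = 0 := CharTwo.two_eq_zero
  have h4 : trace (x : Matrix (Fin 2) (Fin 2) F) ^ 2 ^ j = 0 := by rw [← h2]; exact_mod_cast h3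
  exact sq_of_trace ((pow_eq_zero_iff (by positivity)).1 h4)

/-- every function is `SF` -/
theorem sf (χ : ProjectiveSpecialLinearGroup (Fin 2) F → ℂ) : SF χ := by
  intro u s _ hu _
  obtain ⟨j, hj⟩ := hu
  obtain ⟨x, rfl⟩ := pr_surjective u
  have h1 : x ^ 2 ^ j = 1 := by
    apply pr_injective
    rw [map_pow, map_one, ← hj, pow_orderOf_eq_one]
  have h2 := sq_eq_one h1
  have h3 : (pr x) ^ 3 = pr x := by
    rw [← map_pow, pow_succ, h2, one_mul]
  rw [h3]

theorem mul_self_mult (s : Multiplicative F) : s * s = 1 := CharTwo.add_self_eq_zero s.toAdd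

theorem unH_sq (s : Multiplicative F) : unH F s ^ 2 = 1 := by
  rw [← map_pow, pow_two, mul_self_mult, map_one]

theorem sq_of_commute {g : Matrix.SpecialLinearGroup (Fin 2) F} (h : un (1 : F) * g = g * un 1) : g ^ 2 = 1 := by
  have h0 : (un (1 : F) : Matrix (Fin 2) (Fin 2) F) * g = g * (un (1 : F) : Matrix (Fin 2) (Fin 2) F) := by
    rw [← Matrix.SpecialLinearGroup.coe_mul, h, Matrix.SpecialLinearGroup.coe_mul]
  have h2 := congrFun (congrFun h0 0) 1
  rw [coe_un] at h2
  simp [Matrix.mul_apply, Fin.sum_univ_two] at h2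
  apply sq_of_trace
  rw [trace_fin_two]
  have h3 : (2 : F) = 0 := CharTwo.two_eq_zero
  linear_combination h2 + g 0 0 * h3

theorem twoC [Finite F] : H601.OddDeg.TwoC (ProjectiveSpecialLinearGroup (Fin 2) F) := by
  refine H601.OddDeg.TwoC.of_cover pr pr_surjective (by rw [QuotientGroup.ker_mk']) (unH F).range ?_ ?_
  · rintro ⟨_, t, rfl⟩
    exact ⟨1, Subtype.ext (unH_sq t)⟩
  · intro g hg
    refine ⟨1, ?_⟩
    rw [pow_one, sq_of_commute (hg (un 1) ⟨Multiplicative.ofAdd 1, rfl⟩)]
    exact one_mem _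

/-! ### invariant classes -/

/-- the companion matrix of trace `a` -/
def cm (a : F) : Matrix.SpecialLinearGroup (Fin 2) F := ⟨!![0, -1; 1, a], by rw [det_fin_two_of]; ring⟩

omit [CharP F 2] in
theorem coe_cm (a : F) : (cm a : Matrix (Fin 2) (Fin 2) F) = !![0, -1; 1, a] := rfl

omit [CharP F 2] in
theorem trace_cm (a : F) : trace (cm a : Matrix (Fin 2) (Fin 2) F) = a := by
  rw [trace_fin_two, coe_cm]
  simp

omit [CharP F 2] in
theorem fld_cm {σ : F ≃+* F} {a : F} (ha : σ a = a) : fld σ (cm a) = cm a := by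
  refine Matrix.SpecialLinearGroup.ext _ _ fun i j => ?_
  rw [coe_fld_apply, coe_cm]
  fin_cases i <;> fin_cases j <;> simp [ha]

theorem eq_of_conj {a b : F} (h : IsConj (pr (cm a)) (pr (cm b))) : a = b := by
  obtain ⟨c, hc⟩ := isConj_iff.1 h
  obtain ⟨g, rfl⟩ := pr_surjective c
  rw [← map_inv, ← map_mul, ← map_mul] at hc
  have h1 : g * cm a * g⁻¹ = cm b := pr_injective hc
  have h2 : trace ((g * cm a * g⁻¹ : Matrix.SpecialLinearGroup (Fin 2) F) : Matrix (Fin 2) (Fin 2) F) = b := by
    rw [h1, trace_cm]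
  rw [Matrix.SpecialLinearGroup.coe_mul, trace_mul_comm, ← Matrix.SpecialLinearGroup.coe_mul, ← mul_assoc,
    inv_mul_cancel, one_mul, trace_cm] at h2
  exact h2

theorem card_fixed_le [Finite F] (σ : F ≃+* F) : Nat.card {a : F // σ a = a} ≤
    Nat.card {C : ConjClasses (ProjectiveSpecialLinearGroup (Fin 2) F) // ConjClasses.map (fa σ).toMonoidHom C = C} := by
  have : Finite (ConjClasses (ProjectiveSpecialLinearGroup (Fin 2) F)) := inferInstance
  refine Nat.card_le_card_of_injective
    (fun a : {a : F // σ a = a} => (⟨ConjClasses.mk (pr (cm a.1)), ?_⟩ :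
      {C : ConjClasses (ProjectiveSpecialLinearGroup (Fin 2) F) // ConjClasses.map (fa σ).toMonoidHom C = C})) ?_
  · change ConjClasses.mk (fa σ (pr (cm a.1))) = _
    rw [fa_pr, fld_cm a.2]
  · intro a b hab
    have h1 : ConjClasses.mk (pr (cm a.1)) = ConjClasses.mk (pr (cm b.1)) := congrArg Subtype.val hab
    exact Subtype.ext (eq_of_conj (ConjClasses.mk_eq_mk_iff_isConj.1 h1))

/-! ### characters -/

section chars

variable [Fintype F]

theorem even_unique (hq : 4 ≤ Fintype.card F) {χ ψ : IrrCharacter (ProjectiveSpecialLinearGroup (Fin 2) F)}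
    (hχ : 2 ∣ charDegree (χ : ProjectiveSpecialLinearGroup (Fin 2) F → ℂ))
    (hψ : 2 ∣ charDegree (ψ : ProjectiveSpecialLinearGroup (Fin 2) F → ℂ)) : χ = ψ := by
  obtain ⟨h1, h2⟩ := S2300.result (F := F)
  obtain ⟨-, h3, -, -⟩ := h2 hq
  have heven : 2 ∣ Fintype.card F := by
    have h5 := FiniteField.even_card_iff_char_two (F := F)
    have h6 := h5.1 (ringChar.eq F 2)
    omega
  have key : ∀ χ : IrrCharacter (ProjectiveSpecialLinearGroup (Fin 2) F),
      2 ∣ charDegree (χ : ProjectiveSpecialLinearGroup (Fin 2) F → ℂ) →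
      (Cfsg.Agent.H684.BlockTools.infl pr pr_surjective χ : Matrix.SpecialLinearGroup (Fin 2) F → ℂ) 1 =
        (Fintype.card F : ℂ) := by
    intro χ h2
    have h4 : (Cfsg.Agent.H684.BlockTools.infl pr pr_surjective χ : Matrix.SpecialLinearGroup (Fin 2) F → ℂ) 1 =
        (charDegree (χ : ProjectiveSpecialLinearGroup (Fin 2) F → ℂ) : ℂ) := by
      change (χ : ProjectiveSpecialLinearGroup (Fin 2) F → ℂ) (pr 1) = _
      rw [map_one, Cfsg.Agent.Blocks.Basic.irr_one_eq_charDegree χ.2]
    rcases h1 _ (Cfsg.Agent.H684.BlockTools.infl pr pr_surjective χ).2 with h | h | h | h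
    · exfalso
      rw [h4] at h
      have h5 : charDegree (χ : ProjectiveSpecialLinearGroup (Fin 2) F → ℂ) = 1 := by exact_mod_cast h
      omega
    · exfalso
      rw [h4] at h
      have h5 : charDegree (χ : ProjectiveSpecialLinearGroup (Fin 2) F → ℂ) + 1 = Fintype.card F := by
        have : (charDegree (χ : ProjectiveSpecialLinearGroup (Fin 2) F → ℂ) : ℂ) + 1 = (Fintype.card F : ℂ) := by
          rw [h]; ring
        exact_mod_cast this
      omega
    · exact h
    · exfalso
      rw [h4] at h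
      have h5 : charDegree (χ : ProjectiveSpecialLinearGroup (Fin 2) F → ℂ) = Fintype.card F + 1 := by
        exact_mod_cast h
      omega
  have hs := (Nat.card_eq_one_iff_unique.1 h3).1
  have h4 := congrArg Subtype.val (hs.elim ⟨_, key χ hχ⟩ ⟨_, key ψ hψ⟩)
  exact Cfsg.Agent.H684.BlockTools.infl_injective pr pr_surjective h4

/-- **three invariant good characters** -/
theorem gInv3_fld {σ : F ≃+* F} (hr : 4 ≤ Nat.card {a : F // σ a = a}) : GInv3 (fa σ) := by
  have hq : 4 ≤ Fintype.card F := by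
    rw [← Nat.card_eq_fintype_card]
    exact hr.trans (Nat.card_le_card_of_injective _ Subtype.val_injective)
  have : Finite (IrrCharacter (ProjectiveSpecialLinearGroup (Fin 2) F)) := Characters.Core.finite_irr
  let X := {χ : IrrCharacter (ProjectiveSpecialLinearGroup (Fin 2) F) //
    (χ : ProjectiveSpecialLinearGroup (Fin 2) F → ℂ) ∘ (fa σ) = (χ : ProjectiveSpecialLinearGroup (Fin 2) F → ℂ)}
  have hX : 4 ≤ Nat.card X := by
    have := S0173.result (fa σ)
    have h2 := card_fixed_le σ
    rw [this] at h2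
    exact hr.trans h2
  let P : X → Prop := fun χ => ¬ 2 ∣ charDegree (χ.1 : ProjectiveSpecialLinearGroup (Fin 2) F → ℂ)
  classical
  have h1 : Nat.card {x : X // P x} + Nat.card {x : X // ¬ P x} = Nat.card X := by
    rw [← Nat.card_sum]
    exact Nat.card_congr (Equiv.sumCompl P)
  have h2 : Nat.card {x : X // ¬ P x} ≤ 1 := by
    have : Subsingleton {x : X // ¬ P x} :=
      ⟨fun a b => Subtype.ext (Subtype.ext (even_unique hq (not_not.1 a.2) (not_not.1 b.2)))⟩
    exact Finite.card_le_one_iff_subsingleton.2 this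
  have h3 : 3 ≤ Nat.card {x : X // P x} := by omega
  have : Fintype {x : X // P x} := Fintype.ofFinite _
  rw [Nat.card_eq_fintype_card] at h3
  obtain ⟨f⟩ := Function.Embedding.nonempty_of_card_le (α := Fin 3) (β := {x : X // P x}) (by
    rw [Fintype.card_fin]; exact h3)
  refine ⟨fun i => ((f i).1.1 : ProjectiveSpecialLinearGroup (Fin 2) F → ℂ), ?_, ?_⟩
  · intro i j hij
    exact f.injective (Subtype.ext (Subtype.ext (Subtype.ext hij)))
  · intro i
    have ho : OddIrr ((f i).1.1 : ProjectiveSpecialLinearGroup (Fin 2) F → ℂ) := ⟨(f i).1.1.2, (f i).2⟩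
    refine ⟨(sf _).good ho twoC, fun x => ?_⟩
    exact congrFun (f i).1.2 x

end chars

end char2

end Cfsg.Agent.H269.K547.PslE
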