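import Cfsg.Agent.H269.K547.PslE
import Cfsg.Agent.H821.K547.Tools
import Cfsg.Agent.ClassicalGeometry.PSL2Basic

/-!
# S4547, `PSL₂(q)`, `q` even: normal form of the outer 2-automorphisms

`exists_normal` : `τ = conj g * fa σ` with `σ ^ 2 ^ k = 1`, `σ ≠ 1`; the invariant quotient of a Sylow 2-subgroup.
-/

set_option autoImplicit false
set_option linter.unusedSectionVars false

open Matrix Cfsg

namespace Cfsg.Agent.H269.K547.PslE

open Cfsg.Agent.ClassicalGeometry.AutPSL.Root Cfsg.Agent.ClassicalGeometry.AutPSL.Auto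
open Cfsg.Agent.ClassicalGeometry.AutPSL.Main
open Cfsg.Agent.H821.K547 Cfsg.Agent.H967.K4 Cfsg.Agent.H601.K4 Cfsg.Agent.H307.QE

universe u

variable {F : Type u} [Field F]

/-- `fa` is a homomorphism -/
theorem fa_pow (σ : F ≃+* F) (n : ℕ) : fa σ ^ n = fa (σ ^ n) := by
  unfold fa
  rw [← map_pow, ← map_pow]

theorem fa_one : fa (1 : F ≃+* F) = 1 := by
  unfold fa
  rw [map_one, map_one]

/-- conjugation with an element of `SL₂(F)` -/
theorem conj_pr (s : Matrix.SpecialLinearGroup (Fin 2) F) :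
    MulAut.conj (pr s) = lift (cj (s : GL (Fin 2) F)) := by
  ext x
  obtain ⟨x, rfl⟩ := pr_surjective x
  rw [lift_pr, MulAut.conj_apply, ← map_inv, ← map_mul, ← map_mul]
  congr 1

theorem pow_eq_one_of_inner {σ : F ≃+* F} {s : ProjectiveSpecialLinearGroup (Fin 2) F}
    (h : fa σ = MulAut.conj s) : σ = 1 := by
  obtain ⟨s, rfl⟩ := pr_surjective s
  rw [conj_pr] at h
  have h1 : lift (cj (s : GL (Fin 2) F) * fld 1) = lift (fld σ) := by
    rw [map_one, mul_one]
    exact h.symm
  exact (injective_aux h1).2.symm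

section char2

variable [CharP F 2] [Finite F]

/-- in characteristic 2 every element of `GL₂(F)` acts as an element of `SL₂(F)` -/
theorem exists_inner (A : GL (Fin 2) F) : ∃ g : ProjectiveSpecialLinearGroup (Fin 2) F, lift (cj A) = MulAut.conj g := by
  obtain ⟨c, hc⟩ := FiniteField.isSquare_of_char_two (F := F) (ringChar.eq F 2) (det (A : Matrix (Fin 2) (Fin 2) F))
  have hd : det (A : Matrix (Fin 2) (Fin 2) F) ≠ 0 := (Matrix.isUnits_det_units A).ne_zero
  have hc0 : c ≠ 0 := by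
    rintro rfl
    rw [mul_zero] at hc
    exact hd hc
  let B : Matrix.SpecialLinearGroup (Fin 2) F := ⟨c⁻¹ • (A : Matrix (Fin 2) (Fin 2) F), by
    rw [det_smul, Fintype.card_fin, hc]
    field_simp⟩
  refine ⟨pr B, ?_⟩
  ext x
  obtain ⟨x, rfl⟩ := pr_surjective x
  rw [lift_pr, MulAut.conj_apply, ← map_inv, ← map_mul, ← map_mul]
  congr 1
  rw [eq_mul_inv_iff_mul_eq]
  apply Subtype.ext
  change (A : Matrix (Fin 2) (Fin 2) F) * x * ((A⁻¹ : GL (Fin 2) F) : Matrix (Fin 2) (Fin 2) F) *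
    (c⁻¹ • (A : Matrix (Fin 2) (Fin 2) F)) = (c⁻¹ • (A : Matrix (Fin 2) (Fin 2) F)) * x
  rw [Matrix.mul_smul, Matrix.mul_assoc, ← Units.val_mul, inv_mul_cancel, Units.val_one, Matrix.mul_one,
    Matrix.smul_mul]

/-- **Normal form.** -/
theorem exists_fa (τ : MulAut (ProjectiveSpecialLinearGroup (Fin 2) F)) :
    ∃ (g : ProjectiveSpecialLinearGroup (Fin 2) F) (σ : F ≃+* F), τ = MulAut.conj g * fa σ := by
  have : Fact (Nat.Prime 2) := ⟨Nat.prime_two⟩
  have := Fintype.ofFinite F
  obtain ⟨A, σ, rfl⟩ := surj_two 2 τ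
  obtain ⟨g, hg⟩ := exists_inner A
  exact ⟨g, σ, by rw [map_mul, hg]; rfl⟩

theorem exists_normal {τ : MulAut (ProjectiveSpecialLinearGroup (Fin 2) F)} (hτ : TwoPow τ) (hi : ¬ IsInn τ) :
    ∃ (g : ProjectiveSpecialLinearGroup (Fin 2) F) (σ : F ≃+* F) (k : ℕ), τ = MulAut.conj g * fa σ ∧
      σ ^ 2 ^ k = 1 ∧ σ ≠ 1 := by
  obtain ⟨g, σ, rfl⟩ := exists_fa τ
  have h1 : TwoPow (fa σ) := by
    have := TwoPow.conj_mul hτ g⁻¹
    rwa [← mul_assoc, ← map_mul, inv_mul_cancel, map_one, one_mul] at this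
  obtain ⟨k, s, hs⟩ := h1
  refine ⟨g, σ, k, rfl, ?_, ?_⟩
  · apply pow_eq_one_of_inner (s := s)
    rw [← fa_pow]
    ext x
    rw [hs x, MulAut.conj_apply]
  · rintro rfl
    apply hi
    refine ⟨g, fun x => ?_⟩
    rw [fa_one, mul_one, MulAut.conj_apply]

end char2

/-! ### the group `AutExt` -/

theorem autExt_conj {S : Type u} [Group S] (g : S) (τ : MulAut S) : AutExt (MulAut.conj g * τ) = AutExt τ := by
  have hg : ∀ g : S, MulAut.conj g ∈ (MulAut.conj : S →* MulAut S).range := fun g => ⟨g, rfl⟩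
  apply le_antisymm
  · refine sup_le le_sup_left ?_
    rw [Subgroup.zpowers_le]
    exact mul_mem (Subgroup.mem_sup_left (hg g)) (Subgroup.mem_sup_right (Subgroup.mem_zpowers τ))
  · refine sup_le le_sup_left ?_
    rw [Subgroup.zpowers_le]
    have h1 : τ = MulAut.conj g⁻¹ * (MulAut.conj g * τ) := by
      rw [← mul_assoc, ← map_mul, inv_mul_cancel, map_one, one_mul]
    have h2 : MulAut.conj g⁻¹ * (MulAut.conj g * τ) ∈ AutExt (MulAut.conj g * τ) :=
      mul_mem (Subgroup.mem_sup_left (hg _)) (Subgroup.mem_sup_right (Subgroup.mem_zpowers _))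
    rwa [← h1] at h2

/-! ### the Sylow 2-subgroup and its invariant quotient -/

section sylow

variable [CharP F 2] [Finite F]

/-- the unipotent group of `PSL₂(F)` -/
noncomputable def U (F : Type u) [Field F] : Subgroup (ProjectiveSpecialLinearGroup (Fin 2) F) := ((pr).comp (unH F)).range

theorem prun_injective : Function.Injective ((pr).comp (unH F)) := pr_injective.comp unH_injective

/-- `F ≃ U` -/
noncomputable def uE : Multiplicative F ≃* U F := MonoidHom.ofInjective prun_injective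

theorem coe_uE (t : Multiplicative F) : ((uE t : U F) : ProjectiveSpecialLinearGroup (Fin 2) F) = pr (un t.toAdd) := rfl

theorem fld_un (σ : F ≃+* F) (t : F) : fld σ (un t) = un (σ t) := by
  refine Matrix.SpecialLinearGroup.ext _ _ fun i j => ?_
  rw [coe_fld_apply, coe_un, coe_un]
  fin_cases i <;> fin_cases j <;> simp

theorem fa_uE (σ : F ≃+* F) (t : F) : fa σ ((uE (Multiplicative.ofAdd t) : U F) : ProjectiveSpecialLinearGroup (Fin 2) F) =
    ((uE (Multiplicative.ofAdd (σ t)) : U F) : ProjectiveSpecialLinearGroup (Fin 2) F) := by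
  rw [coe_uE, coe_uE, fa_pr, fld_un]
  rfl

/-- `U` is a Sylow 2-subgroup -/
theorem exists_sylow : ∃ Q : Sylow 2 (ProjectiveSpecialLinearGroup (Fin 2) F), (Q : Subgroup _) = U F := by
  have : Fact (Nat.Prime 2) := ⟨Nat.prime_two⟩
  have := Fintype.ofFinite F
  have h1 : Nat.card (ProjectiveSpecialLinearGroup (Fin 2) F) = Fintype.card F * (Fintype.card F ^ 2 - 1) := by
    rw [← Nat.card_congr (prE (F := F)).toEquiv, Cfsg.Agent.ClassicalGeometry.PSL2Basic.card_SL2]
  have h2 : Nat.card (U F) = Fintype.card F := by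
    rw [← Nat.card_congr (uE (F := F)).toEquiv, ← Nat.card_eq_fintype_card]
    rfl
  have h3 : (U F).index = Fintype.card F ^ 2 - 1 := by
    have h4 := (U F).card_mul_index
    rw [h1, h2] at h4
    exact Nat.eq_of_mul_eq_mul_left Fintype.card_pos h4
  have heven : 2 ∣ Fintype.card F := by
    have h5 := FiniteField.even_card_iff_char_two (F := F)
    have h6 := h5.1 (ringChar.eq F 2)
    omega
  have h4 : ¬ 2 ∣ (U F).index := by
    rw [h3]
    have h5 : 2 ∣ Fintype.card F ^ 2 := Dvd.dvd.pow heven two_ne_zero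
    have h6 : 0 < Fintype.card F ^ 2 := pow_pos Fintype.card_pos 2
    omega
  have h5 : IsPGroup 2 (U F) := by
    rintro ⟨_, t, rfl⟩
    refine ⟨1, Subtype.ext ?_⟩
    change (pr (unH F t)) ^ 2 = 1
    rw [← map_pow, unH_sq, map_one]
  exact ⟨h5.toSylow h4, rfl⟩

/-- the `σ`-coinvariants of `F` map onto `C_2^2` -/
theorem exists_quot {σ : F ≃+* F} (hr : 4 ≤ Nat.card {a : F // σ a = a}) :
    ∃ f : Multiplicative F →* Multiplicative (Fin 2 → ZMod 2), Function.Surjective f ∧
      ∀ t : F, f (Multiplicative.ofAdd (σ t)) = f (Multiplicative.ofAdd t) := by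
  let d : F →+ F := (σ : F →+* F).toAddMonoidHom - AddMonoidHom.id F
  have hd : ∀ t, d t = σ t - t := fun _ => rfl
  have hker : Nat.card d.ker = Nat.card {a : F // σ a = a} := by
    refine Nat.card_congr (Equiv.subtypeEquivRight fun a => ?_)
    rw [AddMonoidHom.mem_ker, hd, sub_eq_zero]
  have hcard : Nat.card (F ⧸ d.range) = Nat.card d.ker := by
    have h1 : Nat.card F = Nat.card (F ⧸ d.range) * Nat.card d.range := AddSubgroup.card_eq_card_quotient_mul_card_addSubgroup _
    have h2 : Nat.card F = Nat.card (F ⧸ d.ker) * Nat.card d.ker := AddSubgroup.card_eq_card_quotient_mul_card_addSubgroup _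
    have h3 : Nat.card (F ⧸ d.ker) = Nat.card d.range := Nat.card_congr (QuotientAddGroup.quotientKerEquivRange d).toEquiv
    rw [h3, mul_comm] at h2
    have h4 : 0 < Nat.card d.range := Nat.card_pos
    exact Nat.eq_of_mul_eq_mul_right h4 (h1.symm.trans h2)
  have hexp : ∀ x : Multiplicative (F ⧸ d.range), x ^ 2 = 1 := by
    intro x
    obtain ⟨t, ht⟩ := QuotientAddGroup.mk_surjective x.toAdd
    have h1 : (2 : ℕ) • x.toAdd = 0 := by
      rw [← ht, ← QuotientAddGroup.mk_nsmul, two_nsmul, CharTwo.add_self_eq_zero]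
      rfl
    exact h1
  obtain ⟨g, hg⟩ := rk_of_exp (A := Multiplicative (F ⧸ d.range)) hexp (n := 2) (by
    have h1 : Nat.card (Multiplicative (F ⧸ d.range)) = Nat.card (F ⧸ d.range) := rfl
    rw [h1, hcard, hker]
    exact hr)
  refine ⟨g.comp (AddMonoidHom.toMultiplicative (QuotientAddGroup.mk' d.range)), ?_, ?_⟩
  · exact hg.comp (QuotientAddGroup.mk'_surjective d.range)
  · intro t
    change g (Multiplicative.ofAdd (QuotientAddGroup.mk (σ t))) = g (Multiplicative.ofAdd (QuotientAddGroup.mk t))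
    congr 2
    rw [QuotientAddGroup.eq]
    refine ⟨-t, ?_⟩
    rw [hd, map_neg]
    ring

end sylow

end Cfsg.Agent.H269.K547.PslE
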