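import Cfsg.Agent.H269.K547.PslEX

/-!
# S4547, `PSL₂(q)`, `q` even: the special rows (field automorphisms with fixed field `F₂`)

* `not_gInv3` : there are only two invariant characters of odd degree;
* `not_d3` : the Sylow 2-subgroups of the extension are generated by two elements;
* `extAll` : `ExtRow τ` for all outer 2-automorphisms of `PSL₂(F)`, `F` of characteristic 2, `|F| ≥ 4`.
-/

set_option autoImplicit false
set_option linter.unusedSectionVars false

open Matrix Cfsg

namespace Cfsg.Agent.H269.K547.PslE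

open Cfsg.Agent.ClassicalGeometry.AutPSL.Root Cfsg.Agent.ClassicalGeometry.AutPSL.Auto
open Cfsg.Agent.ClassicalGeometry.AutPSL.Main
open Cfsg.Agent.H821.K547 Cfsg.Agent.H967.K4 Cfsg.Agent.H601.K4 Cfsg.Agent.H307.QE

universe u

variable {F : Type u} [Field F]

theorem fld_cm' (σ : F ≃+* F) (a : F) : fld σ (cm a) = cm (σ a) := by
  refine Matrix.SpecialLinearGroup.ext _ _ fun i j => ?_
  rw [coe_fld_apply, coe_cm, coe_cm]
  fin_cases i <;> fin_cases j <;> simp

section classes

variable [CharP F 2] [Finite F]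

/-- a cyclic vector -/
theorem exists_cyclic {x : Matrix.SpecialLinearGroup (Fin 2) F} (hx : x ≠ 1) :
    ∃ v w : F, v * (x 1 0 * v + x 1 1 * w) - w * (x 0 0 * v + x 0 1 * w) ≠ 0 := by
  by_contra hno
  push Not at hno
  have h1 := hno 1 0
  have h2 := hno 0 1
  have h3 := hno 1 1
  have h4 := x.det_coe
  rw [det_fin_two] at h4
  have e1 : x 1 0 = 0 := by linear_combination h1
  have e2 : x 0 1 = 0 := by linear_combination -h2
  have e3 : x 1 1 = x 0 0 := by linear_combination h3 - h1 - h2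
  have h5 : (2 : F) = 0 := CharTwo.two_eq_zero
  have e4 : x 0 0 = 1 := by
    have h6 : (x 0 0 - 1) * (x 0 0 - 1) = 0 := by
      rw [e1, e3] at h4
      linear_combination h4 - (x 0 0 - 1) * h5
    exact sub_eq_zero.1 (mul_self_eq_zero.1 h6)
  apply hx
  refine Matrix.SpecialLinearGroup.ext _ _ fun i j => ?_
  rw [Matrix.SpecialLinearGroup.coe_one]
  fin_cases i <;> fin_cases j
  · simpa using e4
  · simpa using e2
  · simpa using e1
  · simpa [e3] using e4

/-- every nontrivial element is conjugate to the companion matrix -/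
theorem isConj_cm {x : Matrix.SpecialLinearGroup (Fin 2) F} (hx : x ≠ 1) :
    IsConj (pr (cm (trace (x : Matrix (Fin 2) (Fin 2) F)))) (pr x) := by
  obtain ⟨v, w, hd⟩ := exists_cyclic hx
  let A : GL (Fin 2) F := Matrix.GeneralLinearGroup.mkOfDetNeZero
    !![v, x 0 0 * v + x 0 1 * w; w, x 1 0 * v + x 1 1 * w] (by
      rw [det_fin_two_of]
      intro h
      apply hd
      linear_combination h)
  have hA : (A : Matrix (Fin 2) (Fin 2) F) = !![v, x 0 0 * v + x 0 1 * w; w, x 1 0 * v + x 1 1 * w] := rfl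
  obtain ⟨g, hg⟩ := exists_inner A
  have h4 := x.det_coe
  rw [det_fin_two] at h4
  have h1 : cj A (cm (trace (x : Matrix (Fin 2) (Fin 2) F))) = x := by
    apply Subtype.ext
    change (A : Matrix (Fin 2) (Fin 2) F) * (cm (trace (x : Matrix (Fin 2) (Fin 2) F)) : Matrix (Fin 2) (Fin 2) F) *
      ((A⁻¹ : GL (Fin 2) F) : Matrix (Fin 2) (Fin 2) F) = (x : Matrix (Fin 2) (Fin 2) F)
    have h2 : (A : Matrix (Fin 2) (Fin 2) F) * (cm (trace (x : Matrix (Fin 2) (Fin 2) F)) : Matrix (Fin 2) (Fin 2) F) =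
        (x : Matrix (Fin 2) (Fin 2) F) * (A : Matrix (Fin 2) (Fin 2) F) := by
      rw [hA, coe_cm, trace_fin_two]
      ext i j
      fin_cases i <;> fin_cases j
      · simp [Matrix.mul_apply, Fin.sum_univ_two]
      · simp [Matrix.mul_apply, Fin.sum_univ_two]
        linear_combination v * h4
      · simp [Matrix.mul_apply, Fin.sum_univ_two]
      · simp [Matrix.mul_apply, Fin.sum_univ_two]
        linear_combination w * h4
    rw [h2, Matrix.mul_assoc, ← Units.val_mul, mul_inv_cancel, Units.val_one, Matrix.mul_one]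
  have h2 : pr x = g * pr (cm (trace (x : Matrix (Fin 2) (Fin 2) F))) * g⁻¹ := by
    have h3 : lift (cj A) (pr (cm (trace (x : Matrix (Fin 2) (Fin 2) F)))) = pr x := by rw [lift_pr, h1]
    rw [← h3, hg, MulAut.conj_apply]
  rw [h2]
  exact isConj_iff.2 ⟨g, rfl⟩

theorem card_fixed_ge (σ : F ≃+* F) :
    Nat.card {C : ConjClasses (ProjectiveSpecialLinearGroup (Fin 2) F) //
      ConjClasses.map (fa σ).toMonoidHom C = C} ≤ Nat.card {a : F // σ a = a} + 1 := by
  rw [← Finite.card_option]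
  refine Nat.card_le_card_of_surjective
    (fun a : Option {a : F // σ a = a} => match a with
      | none => (⟨ConjClasses.mk 1, by
          change ConjClasses.mk (fa σ 1) = _
          rw [map_one]⟩ : {C : ConjClasses (ProjectiveSpecialLinearGroup (Fin 2) F) //
            ConjClasses.map (fa σ).toMonoidHom C = C})
      | some a => ⟨ConjClasses.mk (pr (cm a.1)), by
          change ConjClasses.mk (fa σ (pr (cm a.1))) = _
          rw [fa_pr, fld_cm a.2]⟩) ?_
  rintro ⟨C, hC⟩
  obtain ⟨y, rfl⟩ := ConjClasses.exists_rep C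
  obtain ⟨x, rfl⟩ := pr_surjective y
  by_cases hx : x = 1
  · subst hx
    exact ⟨none, Subtype.ext (congrArg ConjClasses.mk (map_one pr).symm)⟩
  · have h1 : ConjClasses.mk (pr (cm (trace (x : Matrix (Fin 2) (Fin 2) F)))) = ConjClasses.mk (pr x) :=
      ConjClasses.mk_eq_mk_iff_isConj.2 (isConj_cm hx)
    have h2 : σ (trace (x : Matrix (Fin 2) (Fin 2) F)) = trace (x : Matrix (Fin 2) (Fin 2) F) := by
      rw [← h1] at hC
      have h3 : ConjClasses.mk (fa σ (pr (cm (trace (x : Matrix (Fin 2) (Fin 2) F))))) =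
        ConjClasses.mk (pr (cm (trace (x : Matrix (Fin 2) (Fin 2) F)))) := hC
      rw [fa_pr, fld_cm'] at h3
      exact eq_of_conj (ConjClasses.mk_eq_mk_iff_isConj.1 h3)
    exact ⟨some ⟨_, h2⟩, Subtype.ext h1⟩

end classes

section special

variable [CharP F 2] [Fintype F]

/-- the fixed field has 2-power order -/
theorem card_fix_le {σ : F ≃+* F} (h : Nat.card {a : F // σ a = a} < 4) : Nat.card {a : F // σ a = a} ≤ 2 := by
  let d : F →+ F := (σ : F →+* F).toAddMonoidHom - AddMonoidHom.id F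
  have hd : ∀ t, d t = σ t - t := fun _ => rfl
  have hker : Nat.card d.ker = Nat.card {a : F // σ a = a} := by
    refine Nat.card_congr (Equiv.subtypeEquivRight fun a => ?_)
    rw [AddMonoidHom.mem_ker, hd, sub_eq_zero]
  obtain ⟨n, -, hn⟩ := FiniteField.card F 2
  have h1 : Nat.card d.ker ∣ 2 ^ (n : ℕ) := by
    rw [← hn, ← Nat.card_eq_fintype_card]
    exact AddSubgroup.card_addSubgroup_dvd_card _
  obtain ⟨k, -, hk⟩ := (Nat.dvd_prime_pow Nat.prime_two).1 h1
  rw [hker] at hk
  rw [hk] at h ⊢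
  have h2 : k < 2 := by
    by_contra h3
    have : 2 ^ 2 ≤ 2 ^ k := Nat.pow_le_pow_right (by norm_num) (by omega)
    omega
  interval_cases k <;> norm_num

/-- **only two invariant characters of odd degree** -/
theorem not_gInv3 (hq : 4 ≤ Fintype.card F) {σ : F ≃+* F} (h : Nat.card {a : F // σ a = a} < 4) : ¬ GInv3 (fa σ) := by
  rintro ⟨χ, hinj, hχ⟩
  have hfin : Finite (IrrCharacter (ProjectiveSpecialLinearGroup (Fin 2) F)) := Characters.Core.finite_irr
  have hX : Nat.card {χ : IrrCharacter (ProjectiveSpecialLinearGroup (Fin 2) F) //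
    (χ : ProjectiveSpecialLinearGroup (Fin 2) F → ℂ) ∘ (fa σ) = (χ : ProjectiveSpecialLinearGroup (Fin 2) F → ℂ)} ≤ 3 := by
    have h1 := S0173.result (fa σ)
    have h2 := card_fixed_ge σ
    rw [h1] at h2
    have h3 := card_fix_le h
    omega
  -- the Steinberg character
  obtain ⟨-, h2⟩ := S2300.result (F := F)
  obtain ⟨-, h3, -, -⟩ := h2 hq
  obtain ⟨⟨ψ, hψ⟩⟩ := (Nat.card_eq_one_iff_unique.1 h3).2
  have heven : 2 ∣ Fintype.card F := by
    have h5 := FiniteField.even_card_iff_char_two (F := F)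
    have h6 := h5.1 (ringChar.eq F 2)
    omega
  let St : IrrCharacter (ProjectiveSpecialLinearGroup (Fin 2) F) :=
    Cfsg.Agent.H684.BlockTools.infl (prE (F := F)).symm.toMonoidHom (prE (F := F)).symm.surjective ψ
  have hSt : 2 ∣ charDegree (St : ProjectiveSpecialLinearGroup (Fin 2) F → ℂ) := by
    have h4 : (St : ProjectiveSpecialLinearGroup (Fin 2) F → ℂ) 1 = (Fintype.card F : ℂ) := by
      change (ψ : Matrix.SpecialLinearGroup (Fin 2) F → ℂ) ((prE (F := F)).symm 1) = _
      rw [map_one, hψ]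
    rw [Cfsg.Agent.Blocks.Basic.irr_one_eq_charDegree St.2] at h4
    have h5 : charDegree (St : ProjectiveSpecialLinearGroup (Fin 2) F → ℂ) = Fintype.card F := by exact_mod_cast h4
    rw [h5]
    exact heven
  have hStσ : (St : ProjectiveSpecialLinearGroup (Fin 2) F → ℂ) ∘ (fa σ) = St := by
    have h4 : Cfsg.Agent.H684.BlockTools.infl (fa σ).toMonoidHom (fa σ).surjective St = St := by
      apply even_unique hq _ hSt
      have h5 : ((Cfsg.Agent.H684.BlockTools.infl (fa σ).toMonoidHom (fa σ).surjective St :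
          IrrCharacter (ProjectiveSpecialLinearGroup (Fin 2) F)) : ProjectiveSpecialLinearGroup (Fin 2) F → ℂ) 1 =
          (charDegree (St : ProjectiveSpecialLinearGroup (Fin 2) F → ℂ) : ℂ) := by
        change (St : ProjectiveSpecialLinearGroup (Fin 2) F → ℂ) (fa σ 1) = _
        rw [map_one, Cfsg.Agent.Blocks.Basic.irr_one_eq_charDegree St.2]
      rw [Cfsg.Agent.Blocks.Basic.irr_one_eq_charDegree (Subtype.property _)] at h5
      have h6 : charDegree ((Cfsg.Agent.H684.BlockTools.infl (fa σ).toMonoidHom (fa σ).surjective St :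
          IrrCharacter (ProjectiveSpecialLinearGroup (Fin 2) F)) : ProjectiveSpecialLinearGroup (Fin 2) F → ℂ) =
          charDegree (St : ProjectiveSpecialLinearGroup (Fin 2) F → ℂ) := by exact_mod_cast h5
      rw [h6]
      exact hSt
    exact congrArg Subtype.val h4
  have hle : Nat.card (Option (Fin 3)) ≤ Nat.card {χ : IrrCharacter (ProjectiveSpecialLinearGroup (Fin 2) F) //
    (χ : ProjectiveSpecialLinearGroup (Fin 2) F → ℂ) ∘ (fa σ) = (χ : ProjectiveSpecialLinearGroup (Fin 2) F → ℂ)} := by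
    refine Nat.card_le_card_of_injective (fun a => match a with
      | none => ⟨St, hStσ⟩
      | some i => ⟨⟨χ i, (hχ i).1.odd.1⟩, funext (hχ i).2⟩) ?_
    have key : ∀ i : Fin 3, (St : ProjectiveSpecialLinearGroup (Fin 2) F → ℂ) ≠ χ i := by
      intro i hi
      apply (hχ i).1.odd.2
      rw [← hi]
      exact hSt
    rintro (_ | i) (_ | j) hij
    · rfl
    · exact absurd (congrArg (fun a => (a.1 : ProjectiveSpecialLinearGroup (Fin 2) F → ℂ)) hij) (key j)
    · exact absurd (congrArg (fun a => (a.1 : ProjectiveSpecialLinearGroup (Fin 2) F → ℂ)) hij).symm (key i)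
    · have := hinj (congrArg (fun a => (a.1 : ProjectiveSpecialLinearGroup (Fin 2) F → ℂ)) hij)
      rw [this]
  rw [Finite.card_option, Nat.card_fin] at hle
  omega

theorem mul_self_rk {n : ℕ} (a : Multiplicative (Fin n → ZMod 2)) : a * a = 1 := by
  have h1 : a.toAdd + a.toAdd = 0 := by
    funext i
    exact CharTwo.add_self_eq_zero _
  exact h1

theorem zpow_rk {n : ℕ} (a : Multiplicative (Fin n → ZMod 2)) (m : ℤ) : a ^ m = 1 ∨ a ^ m = a := by
  rcases Int.even_or_odd' m with ⟨l, rfl | rfl⟩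
  · left
    rw [two_mul, _root_.zpow_add, ← mul_zpow, mul_self_rk, _root_.one_zpow]
  · right
    rw [_root_.zpow_add, _root_.zpow_one, two_mul, _root_.zpow_add, ← mul_zpow, mul_self_rk, _root_.one_zpow, one_mul]

/-- a `σ`-invariant homomorphism of `F` has small image -/
theorem card_range_le {σ : F ≃+* F} {n : ℕ} (g : Multiplicative F →* Multiplicative (Fin n → ZMod 2))
    (hg : ∀ t : F, g (Multiplicative.ofAdd (σ t)) = g (Multiplicative.ofAdd t)) :
    Nat.card g.range ≤ Nat.card {a : F // σ a = a} := by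
  let d : F →+ F := (σ : F →+* F).toAddMonoidHom - AddMonoidHom.id F
  have hd : ∀ t, d t = σ t - t := fun _ => rfl
  have hker : Nat.card d.ker = Nat.card {a : F // σ a = a} := by
    refine Nat.card_congr (Equiv.subtypeEquivRight fun a => ?_)
    rw [AddMonoidHom.mem_ker, hd, sub_eq_zero]
  have hcard : d.range.index = Nat.card d.ker := by
    have h1 : Nat.card F = Nat.card d.range * d.range.index := (AddSubgroup.card_mul_index _).symm
    have h2 : Nat.card F = Nat.card d.ker * d.ker.index := (AddSubgroup.card_mul_index _).symm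
    rw [AddSubgroup.index_ker, mul_comm] at h2
    have h4 : 0 < Nat.card d.range := Nat.card_pos
    exact Nat.eq_of_mul_eq_mul_left h4 (h1.symm.trans h2)
  let g' : F →+ (Fin n → ZMod 2) := AddMonoidHom.toMultiplicative.symm g
  have hg' : ∀ t, g' t = (g (Multiplicative.ofAdd t)).toAdd := fun _ => rfl
  have hle : d.range ≤ g'.ker := by
    rintro _ ⟨t, rfl⟩
    rw [AddMonoidHom.mem_ker, hd, map_sub, hg', hg', hg, sub_self]
  have h1 : Nat.card g.range = Nat.card g'.range := rfl
  rw [h1, ← AddSubgroup.index_ker, ← hker, ← hcard]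
  exact Nat.le_of_dvd (Nat.pos_of_ne_zero AddSubgroup.index_ne_zero_of_finite) (AddSubgroup.index_dvd_of_le hle)

theorem not_d3 {σ : F ≃+* F} {k : ℕ} (hk : σ ^ 2 ^ k = 1) (h : Nat.card {a : F // σ a = a} < 4) :
    ¬ D3 (AutExt (fa σ)) := by
  intro hD
  have hp : Fact (Nat.Prime 2) := ⟨Nat.prime_two⟩
  obtain ⟨QS, hQS⟩ := exists_sylow (F := F)
  have hfin : Finite (MulAut (ProjectiveSpecialLinearGroup (Fin 2) F)) :=
    Finite.of_injective (fun f : MulAut (ProjectiveSpecialLinearGroup (Fin 2) F) =>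
      (f : ProjectiveSpecialLinearGroup (Fin 2) F → ProjectiveSpecialLinearGroup (Fin 2) F)) DFunLike.coe_injective
  have hinj : Function.Injective (MulAut.conj : ProjectiveSpecialLinearGroup (Fin 2) F →* _) := by
    rw [injective_iff_map_eq_one]
    intro a ha
    exact eq_one_of_conj ha
  have hconj : ∀ s, fa σ * MulAut.conj s * (fa σ)⁻¹ = MulAut.conj (fa σ s) := by
    intro s
    ext y
    simp [MulAut.mul_apply, MulAut.conj_apply]
  let V : Subgroup (MulAut (ProjectiveSpecialLinearGroup (Fin 2) F)) := (U F).map MulAut.conj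
  have hV : IsPGroup 2 V := by
    have : IsPGroup 2 (U F) := by rw [← hQS]; exact QS.2
    exact this.map _
  have hβ : IsPGroup 2 (Subgroup.zpowers (fa σ)) := by
    rintro ⟨_, n, rfl⟩
    refine ⟨k, Subtype.ext ?_⟩
    change ((fa σ) ^ n) ^ 2 ^ k = 1
    rw [← zpow_natCast, ← _root_.zpow_mul, mul_comm, _root_.zpow_mul, zpow_natCast, fa_pow, hk, fa_one, _root_.one_zpow]
  have hn : Subgroup.zpowers (fa σ) ≤ Subgroup.normalizer (V : Set (MulAut (ProjectiveSpecialLinearGroup (Fin 2) F))) := by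
    rw [Subgroup.zpowers_le]
    have h1 : ∀ (v : MulAut (ProjectiveSpecialLinearGroup (Fin 2) F)), v ∈ V → fa σ * v * (fa σ)⁻¹ ∈ V := by
      rintro _ ⟨s, hs, rfl⟩
      rw [hconj]
      exact ⟨_, fa_mem_U σ s hs, rfl⟩
    have h2 : V.map (MulAut.conj (fa σ)).toMonoidHom = V := by
      apply Subgroup.eq_of_le_of_card_ge
      · rintro _ ⟨v, hv, rfl⟩
        exact h1 v hv
      · exact (Nat.card_congr (V.equivMapOfInjective (MulAut.conj (fa σ)).toMonoidHom
          (MulAut.conj (fa σ)).injective).toEquiv).le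
    rw [Subgroup.mem_normalizer_iff]
    intro v
    constructor
    · exact h1 v
    · intro hv
      have h3 : fa σ * v * (fa σ)⁻¹ ∈ V.map (MulAut.conj (fa σ)).toMonoidHom := by rw [h2]; exact hv
      obtain ⟨w, hw, hwv⟩ := h3
      have h4 : fa σ * w * (fa σ)⁻¹ = fa σ * v * (fa σ)⁻¹ := hwv
      have h5 : w = v := mul_left_cancel (mul_right_cancel h4)
      rw [← h5]
      exact hw
  have hP0 : IsPGroup 2 ↥(Subgroup.zpowers (fa σ) ⊔ V) := hβ.to_sup_of_normal_right' hV hn
  have hVle : V ≤ AutExt (fa σ) := by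
    rintro _ ⟨s, -, rfl⟩
    exact Subgroup.mem_sup_left ⟨s, rfl⟩
  have hβle : Subgroup.zpowers (fa σ) ≤ AutExt (fa σ) := le_sup_right
  obtain ⟨Q, hQ⟩ := (hP0.comap_of_injective (AutExt (fa σ)).subtype Subtype.val_injective).exists_le_sylow
  obtain ⟨f, hf⟩ := hD Q
  have hβE : fa σ ∈ AutExt (fa σ) := hβle (Subgroup.mem_zpowers _)
  have hβQ : (⟨fa σ, hβE⟩ : AutExt (fa σ)) ∈ Q := hQ (Subgroup.mem_sup_left (Subgroup.mem_zpowers (fa σ)))
  have hUQ : ∀ s ∈ U F, ∀ hs : MulAut.conj s ∈ AutExt (fa σ), (⟨MulAut.conj s, hs⟩ : AutExt (fa σ)) ∈ Q := by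
    intro s hs _
    exact hQ (Subgroup.mem_sup_right (⟨s, hs, rfl⟩ : MulAut.conj s ∈ V))
  have hsE : ∀ s : ProjectiveSpecialLinearGroup (Fin 2) F, MulAut.conj s ∈ AutExt (fa σ) :=
    fun s => Subgroup.mem_sup_left ⟨s, rfl⟩
  -- `U` is the preimage of `Q`
  let ce : ProjectiveSpecialLinearGroup (Fin 2) F →* AutExt (fa σ) :=
    (MulAut.conj : ProjectiveSpecialLinearGroup (Fin 2) F →* _).codRestrict _ hsE
  have hce : Function.Injective ce := fun a b hab => hinj (congrArg Subtype.val hab)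
  have hV' : (Q : Subgroup (AutExt (fa σ))).comap ce = U F := by
    have h1 : IsPGroup 2 ((Q : Subgroup (AutExt (fa σ))).comap ce) := Q.2.comap_of_injective ce hce
    rw [← hQS]
    refine QS.3 h1 ?_
    intro s hs
    rw [hQS] at hs
    exact hUQ s hs (hsE s)
  -- decomposition
  have hdec : ∀ x : Q, ∃ (u : U F) (n : ℤ), (x : AutExt (fa σ)) = ce u * (⟨fa σ, hβE⟩ : AutExt (fa σ)) ^ n := by
    intro x
    have h1 : ((x : AutExt (fa σ)) : MulAut _) ∈ (MulAut.conj : ProjectiveSpecialLinearGroup (Fin 2) F →* _).range ⊔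
      Subgroup.zpowers (fa σ) := (x : AutExt (fa σ)).2
    have hnr : (MulAut.conj : ProjectiveSpecialLinearGroup (Fin 2) F →* _).range.Normal := by
      constructor
      rintro _ ⟨s, rfl⟩ φ
      refine ⟨φ s, ?_⟩
      ext y
      simp [MulAut.mul_apply, MulAut.conj_apply]
    rw [← SetLike.mem_coe, Subgroup.normal_mul, Set.mem_mul] at h1
    obtain ⟨_, ⟨s, rfl⟩, _, ⟨n, rfl⟩, h2⟩ := h1
    have h3 : (x : AutExt (fa σ)) = ce s * (⟨fa σ, hβE⟩ : AutExt (fa σ)) ^ n := Subtype.ext h2.symm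
    have h4 : s ∈ U F := by
      rw [← hV', Subgroup.mem_comap]
      have h5 : ce s = (x : AutExt (fa σ)) * ((⟨fa σ, hβE⟩ : AutExt (fa σ)) ^ n)⁻¹ := by rw [h3]; group
      rw [h5]
      exact mul_mem x.2 (inv_mem (zpow_mem hβQ n))
    exact ⟨⟨s, h4⟩, n, h3⟩
  -- the restriction to `U`
  let ι : U F →* Q := (ce.comp (U F).subtype).codRestrict (Q : Subgroup (AutExt (fa σ))) (fun s => hUQ s s.2 _)
  let g : Multiplicative F →* Multiplicative (Fin 3 → ZMod 2) := (f.comp ι).comp (uE (F := F)).toMonoidHom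
  let b : Q := ⟨⟨fa σ, hβE⟩, hβQ⟩
  have hg : ∀ t : F, g (Multiplicative.ofAdd (σ t)) = g (Multiplicative.ofAdd t) := by
    intro t
    have h1 : ι (uE (Multiplicative.ofAdd (σ t))) = b * ι (uE (Multiplicative.ofAdd t)) * b⁻¹ := by
      apply Subtype.ext
      apply Subtype.ext
      change MulAut.conj ((uE (Multiplicative.ofAdd (σ t)) : U F) : ProjectiveSpecialLinearGroup (Fin 2) F) =
        fa σ * MulAut.conj ((uE (Multiplicative.ofAdd t) : U F) : ProjectiveSpecialLinearGroup (Fin 2) F) * (fa σ)⁻¹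
      rw [hconj, fa_uE]
    change f (ι (uE (Multiplicative.ofAdd (σ t)))) = f (ι (uE (Multiplicative.ofAdd t)))
    rw [h1, map_mul, map_mul, map_inv, mul_comm (f b), mul_inv_cancel_right]
  have hr := card_range_le g hg
  have hsur : Function.Surjective (fun a : g.range × Fin 2 => (a.1 : Multiplicative (Fin 3 → ZMod 2)) * (f b) ^ (a.2 : ℕ)) := by
    intro y
    obtain ⟨x, rfl⟩ := hf y
    obtain ⟨u, n, hx⟩ := hdec x
    have h1 : x = ι u * b ^ n := Subtype.ext hx
    obtain ⟨t, rfl⟩ := (uE (F := F)).surjective u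
    have h2 : f x = g t * (f b) ^ n := by rw [h1, map_mul, map_zpow]; rfl
    rcases zpow_rk (f b) n with h3 | h3
    · refine ⟨(⟨g t, ⟨t, rfl⟩⟩, 0), ?_⟩
      simp [h2, h3]
    · refine ⟨(⟨g t, ⟨t, rfl⟩⟩, 1), ?_⟩
      simp [h2, h3]
  have h8 := Nat.card_le_card_of_surjective _ hsur
  rw [Nat.card_prod, Nat.card_fin] at h8
  have h9 : Nat.card (Multiplicative (Fin 3 → ZMod 2)) = 8 := by
    have h1 : Nat.card (Multiplicative (Fin 3 → ZMod 2)) = Nat.card (Fin 3 → ZMod 2) := rfl
    rw [h1, Nat.card_fun]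
    simp
  rw [h9] at h8
  omega

/-- the special rows -/
theorem extRow_special (hq : 4 ≤ Fintype.card F) {σ : F ≃+* F} {k : ℕ} (hk : σ ^ 2 ^ k = 1)
    (h : Nat.card {a : F // σ a = a} < 4) : ExtRow (ProjectiveSpecialLinearGroup (Fin 2) F) (fa σ) :=
  ⟨fun h1 => absurd h1 (not_gInv3 hq h), fun h1 => absurd h1 (not_d3 hk h)⟩

/-- **QE5e**: all extension rows of `PSL₂(q)`, `q ≥ 4` even -/
theorem extAll (hq : 4 ≤ Fintype.card F) {τ : MulAut (ProjectiveSpecialLinearGroup (Fin 2) F)} (hτ : TwoPow τ)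
    (hi : ¬ IsInn τ) : ExtRow (ProjectiveSpecialLinearGroup (Fin 2) F) τ :=
  extRow (fun _ _ hk _ h => extRow_special hq hk h) hτ hi

end special

end Cfsg.Agent.H269.K547.PslE
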