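import Cfsg.Agent.H269.K547.PslEN
import Cfsg.Agent.H581.K547.Direct

/-!
# S4547, `PSL₂(q)`, `q` even: the extension rows (task QE5e)

* `d3_fa` : `D3 (AutExt (fa σ))` if the fixed field of `σ ≠ 1` has at least four elements;
* `extRow_fa` : `ExtRow (fa σ)` in this case;
* `extRow` : `ExtRow τ` for every outer 2-automorphism, given the rows of the field automorphisms with fixed field `F₂`.
-/

set_option autoImplicit false
set_option linter.unusedSectionVars false

open Matrix Cfsg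

namespace Cfsg.Agent.H269.K547.PslE

open Cfsg.Agent.ClassicalGeometry.AutPSL.Root Cfsg.Agent.ClassicalGeometry.AutPSL.Auto
open Cfsg.Agent.ClassicalGeometry.AutPSL.Main
open Cfsg.Agent.H821.K547 Cfsg.Agent.H967.K4 Cfsg.Agent.H601.K4 Cfsg.Agent.H307.QE

universe u

variable {F : Type u} [Field F]

theorem fa_zpow (σ : F ≃+* F) (n : ℤ) : fa σ ^ n = fa (σ ^ n) := by
  unfold fa
  rw [← map_zpow, ← map_zpow]

theorem twoPow_fa {σ : F ≃+* F} {k : ℕ} (hk : σ ^ 2 ^ k = 1) : TwoPow (fa σ) := by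
  refine ⟨k, 1, fun x => ?_⟩
  rw [fa_pow, hk, fa_one]
  simp

theorem not_inn_fa {σ : F ≃+* F} (hσ : σ ≠ 1) : ¬ IsInn (fa σ) := by
  rintro ⟨s, hs⟩
  apply hσ
  apply pow_eq_one_of_inner (s := s)
  ext x
  rw [hs x, MulAut.conj_apply]

section

variable [CharP F 2] [Finite F]

theorem eq_one_of_conj {s : ProjectiveSpecialLinearGroup (Fin 2) F} (h : MulAut.conj s = 1) : s = 1 := by
  obtain ⟨x, rfl⟩ := pr_surjective s
  rw [pr_eq_one_iff, Subgroup.mem_center_iff]
  intro g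
  apply pr_injective
  have h1 := DFunLike.congr_fun h (pr g)
  rw [MulAut.conj_apply, MulAut.one_apply, mul_inv_eq_iff_eq_mul] at h1
  rw [map_mul, map_mul]
  exact h1.symm

theorem inner_pow {σ : F ≃+* F} {n : ℤ} {s : ProjectiveSpecialLinearGroup (Fin 2) F} (h : fa σ ^ n = MulAut.conj s) :
    s = 1 := by
  rw [fa_zpow] at h
  have h1 := pow_eq_one_of_inner h
  rw [h1, fa_one] at h
  exact eq_one_of_conj h.symm

theorem fa_mem_U (σ : F ≃+* F) (x : ProjectiveSpecialLinearGroup (Fin 2) F) (hx : x ∈ U F) : fa σ x ∈ U F := by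
  obtain ⟨t, rfl⟩ := hx
  refine ⟨Multiplicative.ofAdd (σ t.toAdd), ?_⟩
  exact (fa_uE σ t.toAdd).symm

/-- **`D3` of the extension** -/
theorem d3_fa {σ : F ≃+* F} {k : ℕ} (hk : σ ^ 2 ^ k = 1) (hσ : σ ≠ 1) (hr : 4 ≤ Nat.card {a : F // σ a = a}) :
    D3 (AutExt (fa σ)) := by
  obtain ⟨Q, hQ⟩ := exists_sylow (F := F)
  obtain ⟨f, hf, hfσ⟩ := exists_quot hr
  have hM : ¬ 2 ∣ (U F).index := by
    have : Fact (Nat.Prime 2) := ⟨Nat.prime_two⟩
    rw [← hQ]
    exact Q.not_dvd_index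
  refine H581.K547.Direct.d3_autExt (A := Multiplicative (Fin 2 → ZMod 2)) (M := U F)
    (f := f.comp (uE (F := F)).symm.toMonoidHom) ?_ ?_ hM (hf.comp (uE (F := F)).symm.surjective)
    (fun x hx => fa_mem_U σ x hx) ?_ ?_ (twoPow_fa hk) (not_inn_fa hσ)
  · intro a
    have h1 : a.toAdd + a.toAdd = 0 := by
      funext i
      exact CharTwo.add_self_eq_zero _
    rw [pow_two]
    exact h1
  · have h1 : Nat.card (Multiplicative (Fin 2 → ZMod 2)) = Nat.card (Fin 2 → ZMod 2) := rfl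
    rw [h1, Nat.card_fun]
    simp
  · intro x hx
    obtain ⟨t, ht⟩ := (uE (F := F)).surjective ⟨x, hx⟩
    have h1 : x = ((uE t : U F) : ProjectiveSpecialLinearGroup (Fin 2) F) := by rw [ht]
    have h2 : (⟨fa σ x, fa_mem_U σ x hx⟩ : U F) = uE (Multiplicative.ofAdd (σ t.toAdd)) := by
      apply Subtype.ext
      rw [← fa_uE]
      exact congrArg (fa σ) h1
    rw [h2, ← ht]
    change f ((uE (F := F)).symm (uE _)) = f ((uE (F := F)).symm (uE t))
    rw [MulEquiv.symm_apply_apply, MulEquiv.symm_apply_apply]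
    exact hfσ t.toAdd
  · intro n s hs
    have h1 := inner_pow hs
    subst h1
    exact ⟨one_mem _, map_one _⟩

end

section

variable [CharP F 2] [Fintype F]

theorem extRow_fa {σ : F ≃+* F} {k : ℕ} (hk : σ ^ 2 ^ k = 1) (hσ : σ ≠ 1) (hr : 4 ≤ Nat.card {a : F // σ a = a}) :
    ExtRow (ProjectiveSpecialLinearGroup (Fin 2) F) (fa σ) :=
  ⟨fun _ => d3_fa hk hσ hr, fun _ => gInv3_fld hr⟩

omit [CharP F 2] [Fintype F] in
theorem extRow_conj {S : Type u} [Group S] {g : S} {τ : MulAut S} (h : ExtRow S τ) : ExtRow S (MulAut.conj g * τ) := by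
  unfold ExtRow
  rw [autExt_conj]
  refine Iff.trans ⟨gInv3_conj g, fun h => ?_⟩ h
  apply gInv3_conj g⁻¹
  rwa [← mul_assoc, ← map_mul, inv_mul_cancel, map_one, one_mul]

/-- **The extension rows of `PSL₂(q)`, `q` even**, given the rows of the field automorphisms with fixed field `F₂`. -/
theorem extRow (hspec : ∀ (σ : F ≃+* F) (k : ℕ), σ ^ 2 ^ k = 1 → σ ≠ 1 → Nat.card {a : F // σ a = a} < 4 →
      ExtRow (ProjectiveSpecialLinearGroup (Fin 2) F) (fa σ))
    {τ : MulAut (ProjectiveSpecialLinearGroup (Fin 2) F)} (hτ : TwoPow τ) (hi : ¬ IsInn τ) :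
    ExtRow (ProjectiveSpecialLinearGroup (Fin 2) F) τ := by
  obtain ⟨g, σ, k, rfl, hk, hσ⟩ := exists_normal hτ hi
  apply extRow_conj
  by_cases hr : 4 ≤ Nat.card {a : F // σ a = a}
  · exact extRow_fa hk hσ hr
  · exact hspec σ k hk hσ (by omega)

end

end Cfsg.Agent.H269.K547.PslE
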